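import Cfsg.Agent.Lib.Compute.Syl24.Core

/-!
# The three statements pass along an isomorphism
-/

set_option autoImplicit false

namespace Cfsg.Agent.Lib.Compute.Syl24

theorem isMulCommutative_of_equiv {G H : Type*} [Group G] [Group H] (f : G ≃* H) (hG : IsMulCommutative G) :
    IsMulCommutative H := by
  refine ⟨⟨fun a b => f.symm.injective ?_⟩⟩
  rw [map_mul, map_mul]
  exact hG.is_comm.comm _ _

theorem center_map_equiv {G H : Type*} [Group G] [Group H] (f : G ≃* H) :
    (Subgroup.center G).map f.toMonoidHom = Subgroup.center H := by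
  ext y
  simp only [Subgroup.mem_map, Subgroup.mem_center_iff]
  constructor
  · rintro ⟨x, hx, rfl⟩ b
    have := hx (f.symm b)
    have h2 := congrArg f this
    simpa using h2
  · intro hy
    refine ⟨f.symm y, fun g => f.injective ?_, by simp⟩
    simpa using hy (f g)

theorem three_congr {S S' : Type*} [Group S] [Group S'] (e : S ≃* S') (h : Three S) : Three S' := by
  obtain ⟨h1, h2, h3⟩ := h
  refine ⟨?_, ?_, ?_⟩
  · intro M hM
    have hM₀ : IsCoatom (M.map (e.symm : S' →* S)) :=
      ((e.symm.mapSubgroup).isCoatom_iff M).2 hM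
    have h4 := h1 _ hM₀
    have h5 := Nat.card_congr (Subgroup.centerCongr (e.symm.subgroupMap M)).toEquiv
    exact h5.trans_le h4
  · obtain ⟨A, ⟨hA1, hA2⟩, hA3⟩ := h2
    refine ⟨A.map (e : S →* S'), ⟨isMulCommutative_of_equiv (e.subgroupMap A) hA1, ?_⟩, ?_⟩
    · rintro _ ⟨a, ha, rfl⟩
      have := hA2 a ha
      show (e a) ^ 2 = 1
      rw [← map_pow, this, map_one]
    · exact (Nat.card_congr (e.subgroupMap A).toEquiv).symm.trans hA3
  · intro A B hA hAc hB hBc
    have h4 := h3 (A.map (e.symm : S' →* S)) (B.map (e.symm : S' →* S))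
      (isMulCommutative_of_equiv (e.symm.subgroupMap A) hA)
      ((Nat.card_congr (e.symm.subgroupMap A).toEquiv).symm.trans hAc)
      (isMulCommutative_of_equiv (e.symm.subgroupMap B) hB)
      ((Nat.card_congr (e.symm.subgroupMap B).toEquiv).symm.trans hBc)
    exact Subgroup.map_injective e.symm.injective h4

/-- The quotients by the centres of isomorphic groups. -/
noncomputable def quotCenterEquiv {G H : Type*} [Group G] [Group H] (f : G ≃* H) :
    G ⧸ Subgroup.center G ≃* H ⧸ Subgroup.center H :=
  QuotientGroup.congr _ _ f (center_map_equiv f)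

end Cfsg.Agent.Lib.Compute.Syl24
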