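import Cfsg.Agent.Lib.Compute.M24Sylow2
import Cfsg.Agent.Lib.Compute.Syl24.Data
import Cfsg.Agent.Lib.Compute.Syl24.Transfer

/-!
# A Sylow 2-subgroup of `M24` modulo its centre
-/

set_option autoImplicit false
set_option maxRecDepth 100000
set_option Elab.async false

namespace Cfsg.Agent.Lib.Compute.Syl24

open Cfsg Cfsg.Agent.Lib.Compute.M24 Cfsg.Agent.Lib.Compute.Golay Cfsg.Agent.Lib.Compute.GolayFast
open Cfsg.Agent.Lib.Compute.SB PTree

theorem find_complete : ∀ {t : PTree} {lo hi x : ℕ}, t.bdd lo hi = true → x ∈ t.toList → find x t = true
  | leaf, _, _, _, _, hx => by simp [toList] at hx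
  | node l k r, lo, hi, x, h, hx => by
    have h0 : ifB (Nat.blt lo k) (ifB (Nat.blt k hi) (ifB (bdd l lo k) (bdd r k hi) false) false) false = true := h
    have ifB_and : ∀ (a : Bool) (b : Bool), ifB a b false = true → a = true ∧ b = true := by
      intro a b
      cases a <;> cases b <;> simp [ifB_true, ifB_false]
    obtain ⟨_, h0⟩ := ifB_and _ _ h0
    obtain ⟨_, h0⟩ := ifB_and _ _ h0
    obtain ⟨h3, h4⟩ := ifB_and _ _ h0
    have hf : find x (node l k r) = ifB (Nat.blt x k) (find x l) (ifB (Nat.blt k x) (find x r) true) := rfl
    rw [hf]
    simp only [toList, List.mem_append, List.mem_cons] at hx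
    rcases hx with hx | rfl | hx
    · have h5 := ((bdd_spec h3).2 x hx).2
      have h6 : Nat.blt x k = true := by rw [Nat.blt_eq]; exact h5
      rw [h6, ifB_true]
      exact find_complete h3 hx
    · have h6 : Nat.blt x x = false := by
        rw [← Bool.not_eq_true, Nat.blt_eq]; exact lt_irrefl x
      rw [h6, ifB_false, ifB_false]
    · have h5 := ((bdd_spec h4).2 x hx).1
      have h6 : Nat.blt x k = false := by
        rw [← Bool.not_eq_true, Nat.blt_eq]; omega
      have h7 : Nat.blt k x = true := by rw [Nat.blt_eq]; exact h5
      rw [h6, ifB_false, h7, ifB_true]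
      exact find_complete h4 hx

/-- An increasing list. -/
def incr : ℕ → List ℕ → Bool
  | _, [] => true
  | a, b :: l => Nat.blt a b && incr b l

theorem incr_spec : ∀ (l : List ℕ) (a : ℕ), incr a l = true → (∀ x ∈ l, a < x) ∧ l.Nodup
  | [], _, _ => by simp
  | b :: l, a, h => by
    simp only [incr, Bool.and_eq_true, Nat.blt_eq] at h
    obtain ⟨h1, h2⟩ := incr_spec l b h.2
    refine ⟨?_, ?_⟩
    · intro x hx
      rcases List.mem_cons.1 hx with rfl | hx
      · exact h.1
      · exact lt_trans h.1 (h1 x hx)
    · exact List.nodup_cons.2 ⟨fun hb => lt_irrefl b (h1 b hb), h2⟩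

/-- A point where two products differ. -/
def dP (a b p : ℕ) : Bool := !Nat.beq (getP a (getP b p)) (getP b (getP a p))

/-- A point where a product differs from the product with the central involution. -/
def eP (a b q : ℕ) : Bool := !Nat.beq (getP b (getP a q)) (getP zP (getP a (getP b q)))

/-- The pairs not commuting modulo the central involution: two points show it. -/
noncomputable def nc (a b : ℕ) : Bool :=
  ifB (ifB (dP a b 23) true (ifB (dP a b 4) true (ifB (dP a b 1) true (dP a b 2))))
    (ifB (eP a b 23) true (ifB (eP a b 4) true (ifB (eP a b 1) true (eP a b 2)))) false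

/-- The check of a row of the table. -/
noncomputable def rowOK (a : ℕ) (l : List ℕ) : ℕ → Bool :=
  List.rec (motive := fun _ => ℕ → Bool) (fun _ => true)
    (fun b _ ih m => ifB (ifB (Nat.beq (Nat.land m 1) 1) true (nc a b))
      (forceL (Nat.shiftRight m 1) ih) false) l

theorem ifB_or (a b : Bool) : ifB a true b = (a || b) := by cases a <;> rfl

theorem ifB_and (a b : Bool) : ifB a b false = (a && b) := by cases a <;> rfl

theorem rowOK_spec (a : ℕ) : ∀ (l : List ℕ) (m : ℕ), rowOK a l m = true → ∀ j, j < l.length →
    nc a (l.getD j 0) = false → m.testBit j = true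
  | [], _, _, _, hj, _ => by simp at hj
  | b :: l, m, h, 0, _, hn => by
    have h' : ifB (ifB (Nat.beq (Nat.land m 1) 1) true (nc a b)) (rowOK a l (Nat.shiftRight m 1)) false = true := h
    simp only [ifB_and, ifB_or, Bool.and_eq_true, Bool.or_eq_true, Nat.beq_eq] at h'
    have hn' : nc a b = false := by simpa using hn
    rcases h'.1 with h1 | h1
    · have h2 : m &&& 1 = 1 := h1
      rw [Nat.and_one_is_mod] at h2
      simpa [Nat.testBit_zero] using h2
    · rw [hn'] at h1
      exact absurd h1 (by decide)
  | b :: l, m, h, j + 1, hj, hn => by
    have h' : ifB (ifB (Nat.beq (Nat.land m 1) 1) true (nc a b)) (rowOK a l (Nat.shiftRight m 1)) false = true := h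
    simp only [ifB_and, Bool.and_eq_true] at h'
    rw [Nat.testBit_succ]
    have h3 : m.shiftRight 1 = m / 2 := Nat.shiftRight_one m
    rw [h3] at h'
    exact rowOK_spec a l (m / 2) h'.2 j (by simpa using hj) (by simpa using hn)

/-- The equality of lists of numbers. -/
def eqL : List ℕ → List ℕ → Bool
  | [], [] => true
  | a :: l, b :: m => Nat.beq a b && eqL l m
  | _, _ => false

theorem eqL_spec : ∀ (l m : List ℕ), eqL l m = true → l = m
  | [], [], _ => rfl
  | a :: l, b :: m, h => by
    simp only [eqL, Bool.and_eq_true, Nat.beq_eq] at h
    rw [h.1, eqL_spec l m h.2]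
  | [], _ :: _, h => by simp [eqL] at h
  | _ :: _, [], h => by simp [eqL] at h

/-! The checks on the data. -/

theorem T0_coverP : allProdP (packT lvlP0) (packL idL) (fun n => find n T0) = true := by decide +kernel
theorem T0_cover : allProd lvlP0 idL (fun L => find (packL L) T0) = true := by
  have h := allProdP_eq lvlP0 (by decide +kernel) idL idL_entries (fun n => find n T0)
  rw [← h]
  exact T0_coverP
theorem T0_bdd : T0.bdd 0 (2 ^ 120) = true := by decide +kernel
theorem T0_len : T0.toList.length = 1024 := by decide +kernel
theorem zP_eq : packL t8L = zP := by decide +kernel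
theorem zP_T0 : find zP T0 = true := by decide +kernel
theorem gL_T0 : gL.all (fun g => find g T0) = true := by decide +kernel
theorem cen_chk : allK (fun n => Nat.beq n idP || Nat.beq n zP || gL.any (fun g => !Nat.beq (mulF n g) (mulF g n))) T0 = true := by
  decide +kernel
theorem Rl_len : Rl.length = 512 := by decide +kernel
theorem Rl_incr : incr 0 Rl = true := by decide +kernel
theorem RT_bdd : RT.bdd 0 (2 ^ 120) = true := by decide +kernel
theorem RT_eq : RT.toList = Rl := (eqL_spec _ _ (by decide +kernel))
theorem Rl_chk : allK (fun n => find n T0 && !find (mulF n zP) RT) RT = true := by decide +kernel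
theorem Rl_cov : allK (fun n => find n RT || find (mulF n zP) RT) T0 = true := by decide +kernel
theorem CM_len : CM.length = 512 := by decide +kernel

/-- Sixteen rows of the table. -/
noncomputable def tabR (a : ℕ) : Bool := (List.range' a 16).all (fun i => rowOK (Rl.getD i 0) Rl (CM.getD i 0))

theorem tab0 : tabR 0 = true := by decide +kernel
theorem tab1 : tabR 16 = true := by decide +kernel
theorem tab2 : tabR 32 = true := by decide +kernel
theorem tab3 : tabR 48 = true := by decide +kernel
theorem tab4 : tabR 64 = true := by decide +kernel
theorem tab5 : tabR 80 = true := by decide +kernel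
theorem tab6 : tabR 96 = true := by decide +kernel
theorem tab7 : tabR 112 = true := by decide +kernel
theorem tab8 : tabR 128 = true := by decide +kernel
theorem tab9 : tabR 144 = true := by decide +kernel
theorem tab10 : tabR 160 = true := by decide +kernel
theorem tab11 : tabR 176 = true := by decide +kernel
theorem tab12 : tabR 192 = true := by decide +kernel
theorem tab13 : tabR 208 = true := by decide +kernel
theorem tab14 : tabR 224 = true := by decide +kernel
theorem tab15 : tabR 240 = true := by decide +kernel
theorem tab16 : tabR 256 = true := by decide +kernel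
theorem tab17 : tabR 272 = true := by decide +kernel
theorem tab18 : tabR 288 = true := by decide +kernel
theorem tab19 : tabR 304 = true := by decide +kernel
theorem tab20 : tabR 320 = true := by decide +kernel
theorem tab21 : tabR 336 = true := by decide +kernel
theorem tab22 : tabR 352 = true := by decide +kernel
theorem tab23 : tabR 368 = true := by decide +kernel
theorem tab24 : tabR 384 = true := by decide +kernel
theorem tab25 : tabR 400 = true := by decide +kernel
theorem tab26 : tabR 416 = true := by decide +kernel
theorem tab27 : tabR 432 = true := by decide +kernel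
theorem tab28 : tabR 448 = true := by decide +kernel
theorem tab29 : tabR 464 = true := by decide +kernel
theorem tab30 : tabR 480 = true := by decide +kernel
theorem tab31 : tabR 496 = true := by decide +kernel

theorem tab_all (k : ℕ) (hk : k < 32) : tabR (16 * k) = true := by
  interval_cases k
  · exact tab0
  · exact tab1
  · exact tab2
  · exact tab3
  · exact tab4
  · exact tab5
  · exact tab6
  · exact tab7
  · exact tab8
  · exact tab9
  · exact tab10
  · exact tab11
  · exact tab12
  · exact tab13
  · exact tab14
  · exact tab15
  · exact tab16
  · exact tab17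
  · exact tab18
  · exact tab19
  · exact tab20
  · exact tab21
  · exact tab22
  · exact tab23
  · exact tab24
  · exact tab25
  · exact tab26
  · exact tab27
  · exact tab28
  · exact tab29
  · exact tab30
  · exact tab31

/-- The row of an element. -/
def cmF (i : ℕ) : ℕ := CM.getD i 0

theorem X_ok : ((List.range 512).filter (fun i => Nat.ble 256 (popc (cmF i)))).length ≤ 12 := by decide +kernel

theorem St_ok : chk cmF A0m St fullM = true := by decide +kernel

theorem At_bdd : At.bdd 0 (2 ^ 120) = true := by decide +kernel
theorem At_one : find idP At = true := by decide +kernel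
theorem At_z : find zP At = true := by decide +kernel
theorem At_T0 : allK (fun n => find n T0) At = true := by decide +kernel
theorem At_mul : allK (fun a => allK (fun b => find (mulF a b) At) At) At = true := by decide +kernel
theorem At_comm : allK (fun a => allK (fun b => Nat.beq (mulF a b) (mulF b a) || Nat.beq (mulF a b) (mulF zP (mulF b a))) At) At = true := by
  decide +kernel
theorem At_sq : allK (fun a => Nat.beq (mulF a a) idP || Nat.beq (mulF a a) zP) At = true := by decide +kernel
theorem At_bits : (List.range 512).all (fun i => (A0m.testBit i) == find (Rl.getD i 0) At) = true := by decide +kernel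
theorem A0_pop : popc A0m = 64 := by decide +kernel

end Cfsg.Agent.Lib.Compute.Syl24
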