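import Cfsg.Prelude.Def_Transfer
import Cfsg.Agent.Lib.Compute.SB.Tree

/-!
# Abelian subgroups of a group of order 512 from a table of commuting elements

The elements of a group of order 512 are indexed by `Fin 512`; masks of 512 bits hold the commuting elements.  A search
on the masks bounds the sets of commuting elements.
-/

set_option autoImplicit false

namespace Cfsg.Agent.Lib.Compute.Syl24

open Cfsg.Agent.Lib.Compute.SB

/-- The number of bits among the first `k`. -/
noncomputable def popF (k : ℕ) : ℕ → ℕ :=
  Nat.rec (fun _ => 0) (fun _ ih m => forceL (Nat.shiftRight m 1) (fun m' => Nat.add (Nat.land m 1) (ih m'))) k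

theorem popF_eq (k m : ℕ) : popF k m = ((List.range k).filter (fun i => m.testBit i)).length := by
  induction k generalizing m with
  | zero => rfl
  | succ k ih =>
    have h : popF (k + 1) m = (m &&& 1) + popF k (m >>> 1) := rfl
    have h1 : ((List.map Nat.succ (List.range k)).filter (fun i => m.testBit i)).length =
        ((List.range k).filter (fun i => (m >>> 1).testBit i)).length := by
      rw [List.filter_map, List.length_map]
      congr 1
      apply List.filter_congr
      intro x _
      simp [Nat.shiftRight_one, Nat.testBit_succ]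
    rw [h, ih, List.range_succ_eq_map, List.filter_cons, Nat.and_one_is_mod, Nat.testBit_zero]
    rcases Nat.mod_two_eq_zero_or_one m with h3 | h3
    · simp only [h3, decide_false, Bool.false_eq_true, if_false, zero_add, ← h1]
      simp
    · simp only [h3, decide_true, if_true, List.length_cons, ← h1]
      omega

theorem popF_add (a b m : ℕ) : popF (a + b) m = popF a m + popF b (m >>> a) := by
  induction a generalizing m with
  | zero => simp [popF]
  | succ a ih =>
    have h1 : popF (a + 1 + b) m = (m &&& 1) + popF (a + b) (m >>> 1) := by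
      rw [show a + 1 + b = (a + b) + 1 by omega]
      rfl
    have h2 : popF (a + 1) m = (m &&& 1) + popF a (m >>> 1) := rfl
    have h3 : m >>> (a + 1) = m >>> 1 >>> a := by rw [Nat.add_comm, Nat.shiftRight_add]
    rw [h1, h2, ih, h3]
    omega

theorem popF_and (a m : ℕ) : popF a (m &&& (2 ^ a - 1)) = popF a m := by
  rw [popF_eq, popF_eq]
  congr 1
  apply List.filter_congr
  intro i hi
  rw [List.mem_range] at hi
  rw [Nat.testBit_and, Nat.testBit_two_pow_sub_one]
  simp [hi]

/-- The number of bits among the first `16 k`, by pieces of 16 bits. -/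
noncomputable def popG (k : ℕ) : ℕ → ℕ :=
  Nat.rec (fun _ => 0) (fun _ ih m => forceL (Nat.land m 65535) (fun c =>
    forceL (Nat.shiftRight m 16) (fun m' => Nat.add (popF 16 c) (ih m')))) k

theorem popG_eq (k m : ℕ) : popG k m = popF (16 * k) m := by
  induction k generalizing m with
  | zero => rfl
  | succ k ih =>
    have h : popG (k + 1) m = popF 16 (m &&& (2 ^ 16 - 1)) + popG k (m >>> 16) := rfl
    rw [h, ih, popF_and, show 16 * (k + 1) = 16 + 16 * k by ring, popF_add]

/-- The number of bits among the first 512. -/
noncomputable def popc (m : ℕ) : ℕ := popG 32 m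

/-- The card of a filter on `Fin 512`. -/
theorem card_filter_fin (p : ℕ → Bool) :
    (Finset.univ.filter fun i : Fin 512 => p i.val = true).card = ((List.range 512).filter p).length := by
  have h1 : ((List.range 512).filter p).toFinset.card = ((List.range 512).filter p).length :=
    List.toFinset_card_of_nodup (List.nodup_range.filter p)
  rw [← h1, ← Finset.card_map Fin.valEmbedding]
  refine congrArg Finset.card (Finset.ext fun x => ?_)
  simp only [Finset.mem_map, Finset.mem_filter, Finset.mem_univ, true_and, Fin.valEmbedding_apply, List.mem_toFinset,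
    List.mem_filter, List.mem_range]
  constructor
  · rintro ⟨i, hi, rfl⟩
    exact ⟨i.2, hi⟩
  · rintro ⟨h1, h2⟩
    exact ⟨⟨x, h1⟩, h2, rfl⟩

theorem card_le_popc {I : Finset (Fin 512)} {T : ℕ} (h : ∀ i ∈ I, T.testBit i = true) : I.card ≤ popc T := by
  rw [popc, popG_eq, popF_eq, ← card_filter_fin]
  apply Finset.card_le_card
  intro i hi
  simp only [Finset.mem_filter, Finset.mem_univ, true_and]
  exact h i hi

/-- A tree of the search. -/
inductive ST where
  | lf : ST
  | nd (y : ℕ) (l r : ST) : ST

/-- All the bits. -/
def fullM : ℕ := 2 ^ 512 - 1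

/-- Removing a bit. -/
def rmB (y : ℕ) : ℕ := Nat.xor fullM (2 ^ y)

/-- The search: a set of commuting elements inside a mask, of at least 64 elements, lies in `A0`. -/
noncomputable def chk (cm : ℕ → ℕ) (A0 : ℕ) (st : ST) : ℕ → Bool :=
  ST.rec (motive := fun _ => ℕ → Bool) (fun T => ifB (Nat.blt (popc T) 64) true (Nat.beq T A0))
    (fun y _ _ ihl ihr T => ifB (forceL (Nat.land T (cm y)) ihl) (forceL (Nat.land T (rmB y)) ihr) false) st

theorem chk_spec {cm : ℕ → ℕ} {A0 : ℕ} (st : ST) (T : ℕ) (h : chk cm A0 st T = true) (I : Finset (Fin 512))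
    (hT : ∀ i ∈ I, T.testBit i = true) (hc : ∀ i ∈ I, ∀ j ∈ I, (cm i).testBit j = true) (hI : 64 ≤ I.card) :
    ∀ i ∈ I, A0.testBit i = true := by
  induction st generalizing T with
  | lf =>
    have h' : ifB (Nat.blt (popc T) 64) true (Nat.beq T A0) = true := h
    cases hb : Nat.blt (popc T) 64 with
    | true =>
      rw [Nat.blt_eq] at hb
      have := card_le_popc hT
      omega
    | false =>
      rw [hb, ifB_false, Nat.beq_eq] at h'
      subst h'
      exact hT
  | nd y l r ihl ihr =>
    have h' : ifB (chk cm A0 l (Nat.land T (cm y))) (chk cm A0 r (Nat.land T (rmB y))) false = true := h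
    have h : chk cm A0 l (Nat.land T (cm y)) = true ∧ chk cm A0 r (Nat.land T (rmB y)) = true := by
      cases h1 : chk cm A0 l (Nat.land T (cm y)) <;> cases h2 : chk cm A0 r (Nat.land T (rmB y)) <;>
        simp_all [ifB_true, ifB_false]
    by_cases hy : ∃ i ∈ I, i.val = y
    · obtain ⟨i, hi, rfl⟩ := hy
      refine ihl _ h.1 ?_
      intro j hj
      show (T &&& cm i).testBit j = true
      rw [Nat.testBit_and, hT j hj, hc i hi j hj]
      rfl
    · refine ihr _ h.2 ?_
      intro j hj
      show (T &&& (fullM ^^^ 2 ^ y)).testBit j = true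
      have hne : j.val ≠ y := fun e => hy ⟨j, hj, e⟩
      rw [Nat.testBit_and, hT j hj, Nat.testBit_xor, fullM, Nat.testBit_two_pow_sub_one, Nat.testBit_two_pow]
      have h1 : j.val < 512 := j.2
      have h2 : ¬ y = j.val := fun e => hne e.symm
      simp [h1, h2]

section

variable {S : Type*} [Group S] {ι : Fin 512 → S} {cm : ℕ → ℕ}

/-- A subgroup as the set of its indices. -/
theorem card_filter_subgroup (hι : Function.Bijective ι) (H : Subgroup S) [DecidablePred fun j => ι j ∈ H] :
    (Finset.univ.filter fun j => ι j ∈ H).card = Nat.card H := by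
  rw [← Fintype.card_subtype, ← Nat.card_eq_fintype_card]
  exact Nat.card_congr (Equiv.subtypeEquiv (Equiv.ofBijective ι hι) (fun _ => Iff.rfl))

theorem card_S (hι : Function.Bijective ι) : Nat.card S = 512 := by
  rw [← Nat.card_congr (Equiv.ofBijective ι hι)]
  simp

/-- Every maximal subgroup has a centre of at most 8 elements, when few elements commute with half of the group. -/
theorem center_le_eight (hι : Function.Bijective ι) (hc : ∀ i j, Commute (ι i) (ι j) → (cm i).testBit j = true)
    (hX : ((List.range 512).filter (fun i => Nat.ble 256 (popc (cm i)))).length ≤ 12)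
    (M : Subgroup S) (hM : IsCoatom M) : Nat.card (Subgroup.center M) ≤ 8 := by
  classical
  have : Fact (Nat.Prime 2) := ⟨Nat.prime_two⟩
  have hS := card_S hι
  have : Finite S := Nat.finite_of_card_ne_zero (by rw [hS]; norm_num)
  have h512 : (512 : ℕ) = 2 ^ 9 := by norm_num
  -- the order of `M`
  have hM1 : Nat.card M ∣ 2 ^ 9 := by
    rw [← h512, ← hS]
    exact Subgroup.card_subgroup_dvd_card M
  obtain ⟨k, hk9, hk⟩ := (Nat.dvd_prime_pow Nat.prime_two).1 hM1
  have hk8 : k = 8 := by
    by_contra hne
    have hlt : k < 9 := by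
      rcases Nat.lt_or_ge k 9 with h | h
      · exact h
      · exfalso
        have hk' : k = 9 := le_antisymm hk9 h
        have : M = ⊤ := by
          apply Subgroup.eq_top_of_card_eq
          rw [hk, hS, hk']
          norm_num
        exact hM.1 this
    have hd : 2 ^ (k + 1) ∣ Nat.card S := by
      rw [hS, h512]
      exact pow_dvd_pow 2 (by omega)
    obtain ⟨K, hK, hMK⟩ := Sylow.exists_subgroup_card_pow_succ hd hk
    have hlt2 : M < K := by
      refine lt_of_le_of_ne hMK ?_
      rintro rfl
      rw [hk] at hK
      have := Nat.pow_right_injective (le_refl 2) hK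
      omega
    have htop := hM.2 K hlt2
    rw [htop] at hK
    rw [Nat.card_congr Subgroup.topEquiv.toEquiv, hS, h512] at hK
    have := Nat.pow_right_injective (le_refl 2) hK
    omega
  subst hk8
  -- the elements of the centre
  have hbit : ∀ z : Subgroup.center M, ∀ i : Fin 512, ι i = (z : M) → 256 ≤ popc (cm i) := by
    intro z i hi
    have h1 := card_filter_subgroup hι M
    rw [hk] at h1
    have h2 : (Finset.univ.filter fun j => ι j ∈ M).card ≤ popc (cm i) := by
      apply card_le_popc
      intro j hj
      simp only [Finset.mem_filter, Finset.mem_univ, true_and] at hj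
      apply hc i j
      have h3 := (Subgroup.mem_center_iff.1 z.2) ⟨ι j, hj⟩
      have h4 := congrArg Subtype.val h3
      simp only [Subgroup.coe_mul] at h4
      rw [hi]
      exact h4.symm
    rw [h1] at h2
    simpa using h2
  have hXc := card_filter_fin (fun i => Nat.ble 256 (popc (cm i)))
  -- the injection
  let f : Subgroup.center M → Fin 512 := fun z => (Equiv.ofBijective ι hι).symm ((z : M) : S)
  have hf : ∀ z, ι (f z) = ((z : M) : S) := fun z => (Equiv.ofBijective ι hι).apply_symm_apply _
  have hinj : Function.Injective f := by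
    intro a b hab
    have : ((a : M) : S) = ((b : M) : S) := by rw [← hf, ← hf, hab]
    exact Subtype.ext (Subtype.ext this)
  have h12 : Nat.card (Subgroup.center M) ≤ 12 := by
    let X := Finset.univ.filter fun i : Fin 512 => Nat.ble 256 (popc (cm i.val)) = true
    let g : Subgroup.center M → X := fun z =>
      ⟨f z, by
        simp only [X, Finset.mem_filter, Finset.mem_univ, true_and]
        exact Nat.ble_eq_true_of_le (hbit z _ (hf z))⟩
    have hg : Function.Injective g := fun a b h => hinj (congrArg Subtype.val h)
    have h1 := Nat.card_le_card_of_injective g hg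
    have h3 : Nat.card X = X.card := by
      rw [Nat.card_eq_fintype_card, Fintype.card_coe]
    have h2 : X.card = _ := hXc
    omega
  have hd : Nat.card (Subgroup.center M) ∣ 2 ^ 8 := by
    rw [← hk]
    exact Subgroup.card_subgroup_dvd_card _
  obtain ⟨e, he8, he⟩ := (Nat.dvd_prime_pow Nat.prime_two).1 hd
  rw [he] at h12 ⊢
  by_contra hcon
  have he4 : 4 ≤ e := by
    by_contra h
    have : e ≤ 3 := by omega
    have := Nat.pow_le_pow_right (show 0 < 2 by norm_num) this
    omega
  have := Nat.pow_le_pow_right (show 0 < 2 by norm_num) he4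
  omega

/-- An abelian subgroup of order 64 lies in `A0`. -/
theorem abelian_le (hι : Function.Bijective ι) (hc : ∀ i j, Commute (ι i) (ι j) → (cm i).testBit j = true)
    {A0 : ℕ} {st : ST} (h : chk cm A0 st fullM = true) (A : Subgroup S) (hA : IsMulCommutative A)
    (hcard : Nat.card A = 64) (i : Fin 512) (hi : ι i ∈ A) : A0.testBit i = true := by
  classical
  refine chk_spec st fullM h (Finset.univ.filter fun j => ι j ∈ A) ?_ ?_ ?_ i (by simpa using hi)
  · intro j _
    rw [fullM, Nat.testBit_two_pow_sub_one]
    simpa using j.2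
  · intro a ha b hb
    simp only [Finset.mem_filter, Finset.mem_univ, true_and] at ha hb
    apply hc
    have := congrArg Subtype.val (hA.is_comm.comm ⟨_, ha⟩ ⟨_, hb⟩)
    exact this
  · rw [card_filter_subgroup hι A, hcard]

end

/-- The three statements on a group. -/
def Three (S : Type*) [Group S] : Prop :=
  (∀ M : Subgroup S, IsCoatom M → Nat.card ↥(Subgroup.center ↥M) ≤ 8) ∧
    (∃ A : Subgroup S, Cfsg.IsElementaryAbelian 2 A ∧ Nat.card ↥A = 64) ∧
    ∀ A B : Subgroup S, IsMulCommutative ↥A → Nat.card ↥A = 64 → IsMulCommutative ↥B → Nat.card ↥B = 64 → A = B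

end Cfsg.Agent.Lib.Compute.Syl24
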