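import Cfsg.Agent.Lib.Compute.Syl24.Checks

/-!
# A Sylow 2-subgroup of `M24` modulo its centre: the three statements
-/

set_option autoImplicit false
set_option maxRecDepth 100000

namespace Cfsg.Agent.Lib.Compute.Syl24

open Cfsg Cfsg.Agent.Lib.Compute.M24 Cfsg.Agent.Lib.Compute.Golay Cfsg.Agent.Lib.Compute.GolayFast
open Cfsg.Agent.Lib.Compute.SB PTree

/-- The packed form of an element of the Sylow subgroup. -/
noncomputable def pk' (x : ↥P0') : ℕ := pk ((x : ↥Cfsg.M24) : P)

theorem mem_P0'_iff (x : ↥P0') : ((x : ↥Cfsg.M24) : P) ∈ P0 := by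
  exact Subgroup.mem_subgroupOf.1 x.2

theorem pk'_inj {x y : ↥P0'} (h : pk' x = pk' y) : x = y :=
  Subtype.ext (Subtype.ext (pk_inj h))

theorem pk'_mul (x y : ↥P0') : pk' (x * y) = mulF (pk' x) (pk' y) := pk_mul _ _

theorem pk'_one : pk' 1 = idP := pk_one

theorem pk_mem_T0 {g : P} (hg : g ∈ P0) : pk g ∈ T0.toList := by
  have h1 := chain_forallB ctxP0 Fall (fun g hg => eq_one_of_all_fixed Fall_ok g hg)
    (fun L => find (packL L) T0) [] lvlP0 lvlP0_ok 1
    (by rw [show toL ((1 : P) : GolayPt → GolayPt) = idL from toL_one]; exact T0_cover) g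
    (by rw [fixIn_nil]; exact hg)
  rw [one_mul] at h1
  exact mem_of_find h1

theorem pk'_mem (x : ↥P0') : pk' x ∈ T0.toList := pk_mem_T0 (mem_P0'_iff x)

theorem T0_nodup : T0.toList.Nodup := (bdd_spec T0_bdd).1

/-- An injection into a duplicate-free list of the same size reaches the whole list. -/
theorem exists_of_mem_list {α : Type*} [Finite α] {l : List ℕ} (f : α → ℕ) (hf : Function.Injective f)
    (hm : ∀ x, f x ∈ l) (hnd : l.Nodup) (hc : l.length = Nat.card α) {n : ℕ} (hn : n ∈ l) : ∃ x, f x = n := by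
  classical
  let g : α → {n // n ∈ l} := fun x => ⟨f x, hm x⟩
  have hg : Function.Injective g := fun a b h => hf (congrArg Subtype.val h)
  have hcard : Nat.card {n // n ∈ l} = l.length := by
    rw [Nat.card_eq_fintype_card, Fintype.card_of_subtype l.toFinset (by simp), List.toFinset_card_of_nodup hnd]
  have hb := hg.bijective_of_nat_card_le (by rw [hcard, hc])
  obtain ⟨x, hx⟩ := hb.2 ⟨n, hn⟩
  exact ⟨x, congrArg Subtype.val hx⟩

/-- Every number of the list is the packed form of an element. -/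
theorem exists_of_mem_T0 {n : ℕ} (hn : n ∈ T0.toList) : ∃ x : ↥P0', pk' x = n :=
  exists_of_mem_list pk' (fun _ _ h => pk'_inj h) pk'_mem T0_nodup (by rw [T0_len, card_P0']) hn

/-- The central involution as an element. -/
noncomputable def zz : ↥P0' := (exists_of_mem_T0 (mem_of_find zP_T0)).choose

theorem pk'_zz : pk' zz = zP := (exists_of_mem_T0 (mem_of_find zP_T0)).choose_spec

theorem zz_val : ((zz : ↥Cfsg.M24) : P) = t8P := by
  apply pk_inj
  have h : pk t8P = zP := by
    rw [← zP_eq, ← t8P_toL]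
    rfl
  rw [h]
  exact pk'_zz

theorem zz_comm (y : ↥P0') : y * zz = zz * y := by
  apply Subtype.ext
  apply Subtype.ext
  show ((y : ↥Cfsg.M24) : P) * ((zz : ↥Cfsg.M24) : P) = ((zz : ↥Cfsg.M24) : P) * ((y : ↥Cfsg.M24) : P)
  rw [zz_val]
  exact (mem_Cen.1 (mem_P0.1 (mem_P0'_iff y)).1).2

theorem zz_sq : zz * zz = 1 := by
  apply pk'_inj
  rw [pk'_mul, pk'_zz, pk'_one]
  decide +kernel

theorem mem_center_iff (x : ↥P0') : x ∈ Subgroup.center ↥P0' ↔ x = 1 ∨ x = zz := by
  constructor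
  · intro hx
    have h1 := allK_iff.1 cen_chk _ (pk'_mem x)
    simp only [Bool.or_eq_true, Nat.beq_eq, List.any_eq_true, Bool.not_eq_true', Bool.not_eq_eq_eq_not,
      Bool.not_true, decide_eq_false_iff_not] at h1
    rcases h1 with (h1 | h1) | ⟨g, hg, h1⟩
    · left
      apply pk'_inj
      rw [h1, pk'_one]
    · right
      apply pk'_inj
      rw [h1, pk'_zz]
    · exfalso
      have hg' := (List.all_eq_true.1 gL_T0) g hg
      obtain ⟨y, rfl⟩ := exists_of_mem_T0 (mem_of_find hg')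
      have h2 := (Subgroup.mem_center_iff.1 hx) y
      have h3 := congrArg pk' h2
      rw [pk'_mul, pk'_mul] at h3
      rw [← h3] at h1
      simp at h1
  · rintro (rfl | rfl)
    · exact Subgroup.one_mem _
    · exact Subgroup.mem_center_iff.2 zz_comm

/-- The quotient. -/
abbrev S0 : Type := ↥P0' ⧸ Subgroup.center ↥P0'

theorem mk_eq_iff (a b : ↥P0') : (QuotientGroup.mk a : S0) = QuotientGroup.mk b ↔ b = a ∨ b = a * zz := by
  rw [QuotientGroup.eq, mem_center_iff, inv_mul_eq_iff_eq_mul, inv_mul_eq_iff_eq_mul, mul_one]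

/-- The representatives. -/
def rp (i : ℕ) : ℕ := Rl.getD i 0

theorem rp_mem (i : Fin 512) : rp i ∈ Rl := by
  have h : i.val < Rl.length := by rw [Rl_len]; exact i.2
  rw [rp, List.getD_eq_getElem _ _ h]
  exact List.getElem_mem h

theorem rp_T0 (i : Fin 512) : rp i ∈ T0.toList := by
  have h := allK_iff.1 Rl_chk (rp i) (by rw [RT_eq]; exact rp_mem i)
  simp only [Bool.and_eq_true] at h
  exact mem_of_find h.1

theorem rp_not (i : Fin 512) : mulF (rp i) zP ∉ Rl := by
  have h := allK_iff.1 Rl_chk (rp i) (by rw [RT_eq]; exact rp_mem i)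
  simp only [Bool.and_eq_true, Bool.not_eq_true'] at h
  intro hm
  rw [← RT_eq] at hm
  have h2 := find_complete RT_bdd hm
  rw [h.2] at h2
  exact absurd h2 (by decide)

/-- The lifts of the representatives. -/
noncomputable def em (i : Fin 512) : ↥P0' := (exists_of_mem_T0 (rp_T0 i)).choose

theorem pk'_em (i : Fin 512) : pk' (em i) = rp i := (exists_of_mem_T0 (rp_T0 i)).choose_spec

/-- The elements of the quotient. -/
noncomputable def ι (i : Fin 512) : S0 := QuotientGroup.mk (em i)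

theorem rp_inj {i j : Fin 512} (h : rp i = rp j) : i = j := by
  have hnd : Rl.Nodup := (incr_spec Rl 0 Rl_incr).2
  have hi : i.val < Rl.length := by rw [Rl_len]; exact i.2
  have hj : j.val < Rl.length := by rw [Rl_len]; exact j.2
  rw [rp, rp, List.getD_eq_getElem _ _ hi, List.getD_eq_getElem _ _ hj] at h
  exact Fin.ext ((List.Nodup.getElem_inj_iff hnd).1 h)

theorem exists_rp {n : ℕ} (h : n ∈ Rl) : ∃ i : Fin 512, rp i = n := by
  obtain ⟨k, hk, rfl⟩ := List.mem_iff_getElem.1 h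
  rw [Rl_len] at hk
  exact ⟨⟨k, hk⟩, by rw [rp, List.getD_eq_getElem]⟩

theorem ι_inj : Function.Injective ι := by
  intro i j h
  rcases (mk_eq_iff _ _).1 h with h1 | h1
  · apply rp_inj
    rw [← pk'_em, ← pk'_em, h1]
  · exfalso
    have h2 := congrArg pk' h1
    rw [pk'_mul, pk'_em, pk'_em, pk'_zz] at h2
    have := rp_mem j
    rw [h2] at this
    exact rp_not i this

theorem ι_surj : Function.Surjective ι := by
  intro q
  obtain ⟨x, rfl⟩ := QuotientGroup.mk_surjective q
  have h1 := allK_iff.1 Rl_cov _ (pk'_mem x)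
  simp only [Bool.or_eq_true] at h1
  rcases h1 with h1 | h1
  · obtain ⟨i, hi⟩ := exists_rp (by rw [← RT_eq]; exact mem_of_find h1)
    refine ⟨i, ?_⟩
    have : em i = x := pk'_inj (by rw [pk'_em, hi])
    rw [ι, this]
  · obtain ⟨i, hi⟩ := exists_rp (by rw [← RT_eq]; exact mem_of_find h1)
    refine ⟨i, ?_⟩
    have : em i = x * zz := pk'_inj (by rw [pk'_em, hi, pk'_mul, pk'_zz])
    rw [ι, this]
    exact ((mk_eq_iff _ _).2 (Or.inr (by rw [mul_assoc, zz_sq, mul_one])))

theorem ι_bij : Function.Bijective ι := ⟨ι_inj, ι_surj⟩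

theorem getP_getP (σ τ : P) {p : ℕ} (hp : p < 24) : getP (pk σ) (getP (pk τ) p) = getP (pk (σ * τ)) p := by
  rw [getP_pk_lt τ hp, getP_pk_lt σ (ptIdx_lt _), idxPt_ptIdx, getP_pk_lt (σ * τ) hp]
  rfl

theorem nc_false {x y : ↥P0'} (h : y * x = x * y ∨ y * x = x * y * zz) : nc (pk' x) (pk' y) = false := by
  rw [nc, ifB_and, ifB_or, ifB_or, ifB_or, ifB_or, ifB_or, ifB_or, Bool.and_eq_false_iff]
  rcases h with h | h
  · left
    have key : ∀ p, p < 24 → dP (pk' x) (pk' y) p = false := ?_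
    · rw [key 23 (by norm_num), key 4 (by norm_num), key 1 (by norm_num), key 2 (by norm_num)]
      rfl
    intro p hp'
    have e1 := getP_getP ((x : ↥Cfsg.M24) : P) ((y : ↥Cfsg.M24) : P) hp'
    have e2 := getP_getP ((y : ↥Cfsg.M24) : P) ((x : ↥Cfsg.M24) : P) hp'
    have e3 : ((y : ↥Cfsg.M24) : P) * ((x : ↥Cfsg.M24) : P) = ((x : ↥Cfsg.M24) : P) * ((y : ↥Cfsg.M24) : P) :=
      congrArg (fun t : ↥P0' => ((t : ↥Cfsg.M24) : P)) h
    show (!Nat.beq (getP (pk _) (getP (pk _) p)) (getP (pk _) (getP (pk _) p))) = false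
    rw [e1, e2, e3]
    simp
  · right
    have key : ∀ q, q < 24 → eP (pk' x) (pk' y) q = false := ?_
    · rw [key 23 (by norm_num), key 4 (by norm_num), key 1 (by norm_num), key 2 (by norm_num)]
      rfl
    intro q hq'
    have e1 := getP_getP ((x : ↥Cfsg.M24) : P) ((y : ↥Cfsg.M24) : P) hq'
    have e2 := getP_getP ((y : ↥Cfsg.M24) : P) ((x : ↥Cfsg.M24) : P) hq'
    have e4 : zP = pk ((zz : ↥Cfsg.M24) : P) := pk'_zz.symm
    have e5 := getP_getP ((zz : ↥Cfsg.M24) : P) (((x * y : ↥P0') : ↥Cfsg.M24) : P) hq'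
    have e3 : ((y : ↥Cfsg.M24) : P) * ((x : ↥Cfsg.M24) : P) =
        ((zz : ↥Cfsg.M24) : P) * (((x * y : ↥P0') : ↥Cfsg.M24) : P) := by
      have h2 : y * x = zz * (x * y) := by rw [h, zz_comm]
      exact congrArg (fun t : ↥P0' => ((t : ↥Cfsg.M24) : P)) h2
    show (!Nat.beq (getP (pk _) (getP (pk _) q)) (getP zP (getP (pk _) (getP (pk _) q)))) = false
    rw [e1, e2, e3, e4]
    have e6 : pk (((x * y : ↥P0') : ↥Cfsg.M24) : P) = pk (((x : ↥Cfsg.M24) : P) * ((y : ↥Cfsg.M24) : P)) := rfl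
    rw [← e6, e5]
    simp

theorem cmF_row (i : Fin 512) : rowOK (rp i) Rl (cmF i) = true := by
  have hk : i.val / 16 < 32 := by
    have := i.2
    omega
  have h := List.all_eq_true.1 (tab_all _ hk) i.val (by
    rw [List.mem_range'_1]
    have := i.2
    omega)
  exact h

theorem ι_comm (i j : Fin 512) (h : Commute (ι i) (ι j)) : (cmF i).testBit j = true := by
  have hj : j.val < Rl.length := by rw [Rl_len]; exact j.2
  refine rowOK_spec _ Rl _ (cmF_row i) j hj ?_
  have h1 : (QuotientGroup.mk (em i * em j) : S0) = QuotientGroup.mk (em j * em i) := h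
  have h2 := (mk_eq_iff _ _).1 h1
  have h3 := nc_false h2
  rwa [pk'_em, pk'_em] at h3

/-- The preimage of the abelian subgroup. -/
noncomputable def AtS : Subgroup ↥P0' where
  carrier := {x | pk' x ∈ At.toList}
  one_mem' := by
    show pk' 1 ∈ At.toList
    rw [pk'_one]
    exact mem_of_find At_one
  mul_mem' := by
    intro a b ha hb
    show pk' (a * b) ∈ At.toList
    rw [pk'_mul]
    have h1 := allK_iff.1 At_mul _ ha
    exact mem_of_find (allK_iff.1 h1 _ hb)
  inv_mem' := by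
    intro a ha
    have hpow : ∀ k : ℕ, pk' (a ^ k) ∈ At.toList := by
      intro k
      induction k with
      | zero =>
        rw [pow_zero, pk'_one]
        exact mem_of_find At_one
      | succ k ih =>
        rw [pow_succ, pk'_mul]
        have h1 := allK_iff.1 At_mul _ ih
        exact mem_of_find (allK_iff.1 h1 _ ha)
    have h1 : a⁻¹ = a ^ (orderOf a - 1) := by
      rw [inv_eq_iff_mul_eq_one, ← pow_succ', Nat.sub_add_cancel (orderOf_pos a), pow_orderOf_eq_one]
    show pk' a⁻¹ ∈ At.toList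
    rw [h1]
    exact hpow _

/-- The abelian subgroup. -/
noncomputable def A0S : Subgroup S0 := AtS.map (QuotientGroup.mk' (Subgroup.center ↥P0'))

theorem zz_AtS : zz ∈ AtS := by
  show pk' zz ∈ At.toList
  rw [pk'_zz]
  exact mem_of_find At_z

theorem mem_A0S_iff (i : Fin 512) : ι i ∈ A0S ↔ A0m.testBit i = true := by
  have hbits : A0m.testBit i = find (rp i) At := by
    have h := List.all_eq_true.1 At_bits i.val (List.mem_range.2 i.2)
    exact eq_of_beq h
  rw [hbits]
  constructor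
  · rintro ⟨x, hx, hxi⟩
    have h1 : em i = x ∨ em i = x * zz := (mk_eq_iff x (em i)).1 hxi
    have h2 : em i ∈ AtS := by
      rcases h1 with h1 | h1
      · rwa [h1]
      · rw [h1]
        exact AtS.mul_mem hx zz_AtS
    have h3 : pk' (em i) ∈ At.toList := h2
    rw [pk'_em] at h3
    exact find_complete At_bdd h3
  · intro h
    refine ⟨em i, ?_, rfl⟩
    show pk' (em i) ∈ At.toList
    rw [pk'_em]
    exact mem_of_find h

theorem card_A0S : Nat.card A0S = 64 := by
  classical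
  rw [← card_filter_subgroup ι_bij A0S]
  have h1 := card_filter_fin (fun i => A0m.testBit i)
  have h2 : (Finset.univ.filter fun j => ι j ∈ A0S) = Finset.univ.filter fun i : Fin 512 => A0m.testBit i = true := by
    ext j
    simp only [Finset.mem_filter, Finset.mem_univ, true_and]
    exact mem_A0S_iff j
  rw [h2, h1]
  exact A0_pop

theorem A0S_comm : IsMulCommutative A0S := by
  refine ⟨⟨?_⟩⟩
  rintro ⟨_, x, hx, rfl⟩ ⟨_, y, hy, rfl⟩
  apply Subtype.ext
  show (QuotientGroup.mk (x * y) : S0) = QuotientGroup.mk (y * x)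
  have h1 := allK_iff.1 (allK_iff.1 At_comm _ hx) _ hy
  simp only [Bool.or_eq_true, Nat.beq_eq] at h1
  refine (mk_eq_iff _ _).2 ?_
  rcases h1 with h1 | h1
  · left
    apply pk'_inj
    rw [pk'_mul, pk'_mul, h1]
  · right
    have hxy : x * y = zz * (y * x) := pk'_inj (by
      rw [pk'_mul, pk'_mul, pk'_mul, pk'_zz]
      exact h1)
    rw [hxy, ← zz_comm (y * x), mul_assoc, zz_sq, mul_one]

theorem A0S_sq : ∀ a ∈ A0S, a ^ 2 = 1 := by
  rintro _ ⟨x, hx, rfl⟩
  have h1 := allK_iff.1 At_sq _ hx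
  simp only [Bool.or_eq_true, Nat.beq_eq] at h1
  show (QuotientGroup.mk x : S0) ^ 2 = 1
  rw [← QuotientGroup.mk_pow, ← QuotientGroup.mk_one]
  refine (mk_eq_iff _ _).2 ?_
  rcases h1 with h1 | h1
  · left
    have h2 : x ^ 2 = 1 := pk'_inj (by rw [pow_two, pk'_mul, h1, pk'_one])
    rw [h2]
  · right
    have h2 : x ^ 2 = zz := pk'_inj (by rw [pow_two, pk'_mul, h1, pk'_zz])
    rw [h2, zz_sq]

theorem three_S0 : Three S0 := by
  refine ⟨fun M hM => center_le_eight ι_bij ι_comm X_ok M hM, ⟨A0S, ⟨A0S_comm, A0S_sq⟩, card_A0S⟩, ?_⟩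
  have key : ∀ A : Subgroup S0, IsMulCommutative A → Nat.card A = 64 → A = A0S := by
    intro A hA hc
    apply Subgroup.eq_of_le_of_card_ge
    · intro q hq
      obtain ⟨i, rfl⟩ := ι_surj q
      exact (mem_A0S_iff i).2 (abelian_le ι_bij ι_comm St_ok A hA hc i hq)
    · rw [hc, card_A0S]
  intro A B hA hAc hB hBc
  rw [key A hA hAc, key B hB hBc]

/-- The statement for all the Sylow 2-subgroups of `M24`. -/
theorem sylow_three (P : Sylow 2 ↥Cfsg.M24) :
    Three (↥(P : Subgroup ↥Cfsg.M24) ⧸ Subgroup.center ↥(P : Subgroup ↥Cfsg.M24)) := by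
  have : Fact (Nat.Prime 2) := ⟨Nat.prime_two⟩
  have hfac : (Nat.card ↥Cfsg.M24).factorization 2 = 10 := by
    rw [show Nat.card ↥Cfsg.M24 = 244823040 from card_M24]
    have hp : Nat.Prime 2 := Nat.prime_two
    have hn : (244823040 : ℕ) ≠ 0 := by norm_num
    have h1 := (hp.pow_dvd_iff_le_factorization hn (k := 10)).1 (by norm_num)
    have h2 : ¬ 11 ≤ (244823040 : ℕ).factorization 2 := fun h =>
      absurd ((hp.pow_dvd_iff_le_factorization hn (k := 11)).2 h) (by norm_num)
    omega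
  let Q₀ : Sylow 2 ↥Cfsg.M24 := Sylow.ofCard P0' (by rw [card_P0', hfac]; norm_num)
  have e1 : ↥P0' ≃* ↥(Q₀ : Subgroup ↥Cfsg.M24) := MulEquiv.subgroupCongr (Sylow.coe_ofCard _ _).symm
  have e2 := Sylow.equiv Q₀ P
  exact three_congr (quotCenterEquiv (e1.trans e2)) three_S0

end Cfsg.Agent.Lib.Compute.Syl24
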